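import Mathlib.GroupTheory.SchurZassenhaus
import Mathlib.NumberTheory.Padics.RingHoms
import Mathlib.NumberTheory.Padics.ProperSpace
import Mathlib.Topology.Instances.Matrix
import Mathlib.LinearAlgebra.Matrix.GeneralLinearGroup.Defs
import Mathlib.FieldTheory.IsAlgClosed.Classification
import Mathlib.FieldTheory.IsAlgClosed.AlgebraicClosure
import Mathlib.Analysis.Complex.Polynomial.Basic
import Mathlib.Algebra.MvPolynomial.Cardinal
import Mathlib.RingTheory.Localization.Cardinality
import Mathlib.Analysis.Complex.Cardinality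

/-! Representations over the prime field of a group of order prime to `p` lift to the complex numbers. -/

set_option autoImplicit false
set_option linter.unusedSectionVars false
set_option linter.style.haveILetI false

namespace Cfsg.Agent.H27.SolvBlock

universe u

section Finite

variable {p : ℕ} [Fact p.Prime] {a : ℕ}

/-- The reduction modulo `p`. -/
noncomputable def redP (p k : ℕ) : ZMod (p ^ (k + 1)) →+* ZMod p :=
  ZMod.castHom (dvd_pow_self p k.succ_ne_zero) (ZMod p)

theorem isNilpotent_of_red_zero {k : ℕ} {Z : Matrix (Fin a) (Fin a) (ZMod (p ^ (k + 1)))}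
    (h : (redP p k).mapMatrix Z = 0) : IsNilpotent Z := by
  have hc : ∀ i j, ∃ c, Z i j = (p : ZMod (p ^ (k + 1))) * c := fun i j => by
    have h' : redP p k (Z i j) = 0 := congrFun (congrFun h i) j
    haveI : NeZero (p ^ (k + 1)) := ⟨pow_ne_zero _ (Fact.out : p.Prime).ne_zero⟩
    rw [← ZMod.natCast_zmod_val (Z i j), map_natCast, ZMod.natCast_eq_zero_iff] at h'
    obtain ⟨c, hc⟩ := h'
    exact ⟨c, by rw [← Nat.cast_mul, ← hc, ZMod.natCast_zmod_val]⟩
  choose C hC using hc
  refine ⟨k + 1, ?_⟩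
  rw [show Z = (p : ZMod (p ^ (k + 1))) • Matrix.of C from Matrix.ext fun i j => hC i j, smul_pow,
    ← Nat.cast_pow, ZMod.natCast_self, zero_smul]

theorem isUnit_of_red_one {k : ℕ} {A : Matrix (Fin a) (Fin a) (ZMod (p ^ (k + 1)))}
    (h : (redP p k).mapMatrix A = 1) : IsUnit A := by
  have := (isNilpotent_of_red_zero (Z := A - 1) (by rw [map_sub, h, map_one, sub_self])).isUnit_one_add
  rwa [add_sub_cancel] at this

theorem exists_lift_level {H : Type u} [Group H] [Finite H] (hcop : ¬ p ∣ Nat.card H)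
    (φ : H →* GL (Fin a) (ZMod p)) (hφ : Function.Injective φ) (k : ℕ) :
    ∃ s : H →* Matrix (Fin a) (Fin a) (ZMod (p ^ (k + 1))),
      ∀ h, (redP p k).mapMatrix (s h) = (φ h).1 := by
  haveI : NeZero (p ^ (k + 1)) := ⟨pow_ne_zero _ (Fact.out : p.Prime).ne_zero⟩
  let q : GL (Fin a) (ZMod (p ^ (k + 1))) →* GL (Fin a) (ZMod p) :=
    Units.map (redP p k).mapMatrix.toMonoidHom
  let E : Subgroup (GL (Fin a) (ZMod (p ^ (k + 1)))) := φ.range.comap q
  let e : H ≃* φ.range := MonoidHom.ofInjective hφ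
  let π : E →* H := e.symm.toMonoidHom.comp ((q.comp E.subtype).codRestrict φ.range fun x => x.2)
  have hπ : ∀ x : E, φ (π x) = q (x : GL (Fin a) (ZMod (p ^ (k + 1)))) := fun x =>
    congrArg Subtype.val (e.apply_symm_apply ⟨q (x : GL (Fin a) (ZMod (p ^ (k + 1)))), x.2⟩)
  have hsurj : Function.Surjective π := by
    intro h
    have hr : Function.Surjective (redP p k) := ZMod.castHom_surjective _
    obtain ⟨A, hA⟩ : ∃ A, (redP p k).mapMatrix A = (φ h).1 :=
      ⟨Matrix.of fun i j => (hr ((φ h).1 i j)).choose,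
        Matrix.ext fun i j => (hr ((φ h).1 i j)).choose_spec⟩
    obtain ⟨B, hB⟩ : ∃ B, (redP p k).mapMatrix B = (φ h⁻¹).1 :=
      ⟨Matrix.of fun i j => (hr ((φ h⁻¹).1 i j)).choose,
        Matrix.ext fun i j => (hr ((φ h⁻¹).1 i j)).choose_spec⟩
    have hAu : IsUnit A := by
      have h1 : IsUnit (A * B) := isUnit_of_red_one (by
        rw [map_mul, hA, hB, ← Units.val_mul, ← map_mul, mul_inv_cancel, map_one, Units.val_one])
      rw [Matrix.isUnit_iff_isUnit_det, Matrix.det_mul] at h1
      rw [Matrix.isUnit_iff_isUnit_det]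
      exact isUnit_of_mul_isUnit_left h1
    have hqA : q hAu.unit = φ h := Units.ext hA
    refine ⟨⟨hAu.unit, show q hAu.unit ∈ φ.range from hqA ▸ ⟨h, rfl⟩⟩, hφ ?_⟩
    rw [hπ]; exact hqA
  obtain ⟨n, -, hn⟩ : ∃ n ≤ (k + 1) * (a * a), Nat.card π.ker = p ^ n := by
    refine (Nat.dvd_prime_pow Fact.out).1 ?_
    let f : Matrix (Fin a) (Fin a) (ZMod (p ^ (k + 1))) →+ Matrix (Fin a) (Fin a) (ZMod p) :=
      (redP p k).mapMatrix.toAddMonoidHom
    let ι : π.ker → f.ker := fun x =>
      ⟨((x.1 : GL (Fin a) (ZMod (p ^ (k + 1)))) : Matrix (Fin a) (Fin a) (ZMod (p ^ (k + 1)))) - 1, by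
        have h1 : q (x.1 : GL (Fin a) (ZMod (p ^ (k + 1)))) = 1 := by
          rw [← hπ, MonoidHom.mem_ker.1 x.2, map_one]
        rw [AddMonoidHom.mem_ker, map_sub]
        show (q (x.1 : GL (Fin a) (ZMod (p ^ (k + 1))))).1 - (redP p k).mapMatrix 1 = 0
        rw [h1, map_one, Units.val_one, sub_self]⟩
    have hι : Function.Bijective ι := by
      refine ⟨fun x y hxy => Subtype.ext (Subtype.ext (Units.ext
        (sub_left_injective (congrArg Subtype.val hxy)))), fun z => ?_⟩
      have hz : (redP p k).mapMatrix (1 + z.1) = 1 := by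
        rw [map_add, map_one, show (redP p k).mapMatrix z.1 = 0 from z.2, add_zero]
      have hu := isUnit_of_red_one hz
      have hq : q hu.unit = 1 := Units.ext hz
      refine ⟨⟨⟨hu.unit, show q hu.unit ∈ φ.range from hq ▸ one_mem _⟩, hφ ?_⟩, Subtype.ext ?_⟩
      · rw [hπ, map_one]; exact hq
      · show (1 + z.1) - 1 = z.1
        rw [add_sub_cancel_left]
    rw [Nat.card_congr (Equiv.ofBijective ι hι)]
    refine f.ker.card_addSubgroup_dvd_card.trans (dvd_of_eq ?_)
    rw [Matrix, Nat.card_fun, Nat.card_fun, Nat.card_zmod, Nat.card_fin, ← pow_mul, ← pow_mul]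
  have hidx : π.ker.index = Nat.card H := by
    rw [Subgroup.index_ker, MonoidHom.range_eq_top.2 hsurj, Nat.card_congr Subgroup.topEquiv.toEquiv]
  obtain ⟨C, hC⟩ := Subgroup.exists_right_complement'_of_coprime (N := π.ker) (by
    rw [hidx, hn]
    exact ((Fact.out : p.Prime).coprime_iff_not_dvd.2 hcop).pow_left n)
  have hbij : Function.Bijective (π.comp C.subtype) := by
    refine ⟨(injective_iff_map_eq_one _).2 fun c hc => ?_, fun h => ?_⟩
    · have : (c : E) ∈ π.ker ⊓ C := ⟨hc, c.2⟩
      rw [hC.disjoint.eq_bot, Subgroup.mem_bot] at this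
      exact Subtype.ext this
    · obtain ⟨x, rfl⟩ := hsurj h
      obtain ⟨⟨n', c⟩, hnc⟩ := hC.2 x
      refine ⟨c, ?_⟩
      show π c = π x
      rw [← hnc, map_mul, MonoidHom.mem_ker.1 n'.2, one_mul]
  let c := MulEquiv.ofBijective (π.comp C.subtype) hbij
  refine ⟨(Units.coeHom _).comp ((E.subtype.comp C.subtype).comp c.symm.toMonoidHom), fun h => ?_⟩
  have h1 := hπ (c.symm h : E)
  rw [show π (c.symm h : E) = h from c.apply_symm_apply h] at h1
  exact (congrArg Units.val h1).symm

end Finite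

section Padic

variable {p : ℕ} [Fact p.Prime] {a : ℕ}

theorem exists_lift_padic {H : Type u} [Group H] [Finite H] (hcop : ¬ p ∣ Nat.card H)
    (φ : H →* GL (Fin a) (ZMod p)) (hφ : Function.Injective φ) :
    ∃ s : H →* Matrix (Fin a) (Fin a) ℤ_[p], Function.Injective s := by
  let P : ℕ → (ℤ_[p] →+* ZMod p) := fun k => (redP p k).comp (PadicInt.toZModPow (k + 1))
  let S : ℕ → Set (H → Matrix (Fin a) (Fin a) ℤ_[p]) := fun k => {f |
    (PadicInt.toZModPow (k + 1)).mapMatrix (f 1) = 1 ∧
    (∀ h h', (PadicInt.toZModPow (k + 1)).mapMatrix (f (h * h')) =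
      (PadicInt.toZModPow (k + 1)).mapMatrix (f h * f h')) ∧
    ∀ h, (P k).mapMatrix (f h) = (φ h).1}
  have hnext : ∀ k, S (k + 1) ⊆ S k := by
    intro k f ⟨h1, h2, h3⟩
    let r : ZMod (p ^ (k + 2)) →+* ZMod (p ^ (k + 1)) :=
      ZMod.castHom (pow_dvd_pow p (Nat.le_succ _)) _
    have hr : r.comp (PadicInt.toZModPow (k + 2)) = PadicInt.toZModPow (k + 1) :=
      PadicInt.zmod_cast_comp_toZModPow _ _ (Nat.le_succ _)
    have hr' : ∀ A : Matrix (Fin a) (Fin a) ℤ_[p],
        (PadicInt.toZModPow (k + 1)).mapMatrix A = r.mapMatrix ((PadicInt.toZModPow (k + 2)).mapMatrix A) :=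
      fun A => Matrix.ext fun i j => (RingHom.congr_fun hr (A i j)).symm
    refine ⟨by rw [hr', h1, map_one], fun h h' => by rw [hr', hr', h2], fun h => ?_⟩
    have hP : P k = P (k + 1) := by
      show (redP p k).comp _ = (redP p (k + 1)).comp _
      rw [← hr, ← RingHom.comp_assoc, RingHom.ext_zmod ((redP p k).comp r) (redP p (k + 1))]
    rw [hP, h3]
  have hne : ∀ k, (S k).Nonempty := by
    intro k
    haveI : NeZero (p ^ (k + 1)) := ⟨pow_ne_zero _ (Fact.out : p.Prime).ne_zero⟩
    obtain ⟨s, hs⟩ := exists_lift_level hcop φ hφ k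
    let L : Matrix (Fin a) (Fin a) (ZMod (p ^ (k + 1))) → Matrix (Fin a) (Fin a) ℤ_[p] := fun A =>
      A.map fun x => (x.val : ℤ_[p])
    have hL : ∀ A, (PadicInt.toZModPow (k + 1)).mapMatrix (L A) = A := fun A =>
      Matrix.ext fun i j => by simp [L]
    refine ⟨fun h => L (s h), by rw [hL, map_one], fun h h' => by rw [map_mul, hL, hL, hL, map_mul],
      fun h => ?_⟩
    rw [← hs h]
    exact Matrix.ext fun i j => congrArg (redP p k) (congrFun (congrFun (hL (s h)) i) j)
  have hcl : ∀ k, IsClosed (S k) := by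
    intro k
    letI : TopologicalSpace (ZMod (p ^ (k + 1))) := ⊥
    haveI : DiscreteTopology (ZMod (p ^ (k + 1))) := ⟨rfl⟩
    letI : TopologicalSpace (ZMod p) := ⊥
    haveI : DiscreteTopology (ZMod p) := ⟨rfl⟩
    have hπ : Continuous (PadicInt.toZModPow (p := p) (k + 1)) := by
      refine continuous_of_continuousAt_zero _ ?_
      rw [ContinuousAt, map_zero, nhds_discrete (ZMod (p ^ (k + 1))), Filter.tendsto_pure]
      refine Filter.mem_of_superset (Metric.closedBall_mem_nhds 0
        (show (0 : ℝ) < (p : ℝ) ^ (-((k + 1 : ℕ) : ℤ)) from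
          zpow_pos (Nat.cast_pos.2 (Fact.out : p.Prime).pos) _)) fun x hx => ?_
      rw [mem_closedBall_zero_iff, PadicInt.norm_le_pow_iff_mem_span_pow, ← PadicInt.ker_toZModPow] at hx
      exact hx
    have hπm : Continuous fun A : Matrix (Fin a) (Fin a) ℤ_[p] =>
        (PadicInt.toZModPow (k + 1)).mapMatrix A := continuous_id.matrix_map hπ
    have hPm : Continuous fun A : Matrix (Fin a) (Fin a) ℤ_[p] => (P k).mapMatrix A :=
      continuous_id.matrix_map ((continuous_of_discreteTopology (f := redP p k)).comp hπ)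
    simp only [S, Set.ofPred_and, Set.ofPred_forall]
    exact (isClosed_eq (hπm.comp (continuous_apply 1)) continuous_const).inter
      ((isClosed_iInter fun h => isClosed_iInter fun h' => isClosed_eq (hπm.comp (continuous_apply _))
        (hπm.comp ((continuous_apply h).matrix_mul (continuous_apply h')))).inter
      (isClosed_iInter fun h => isClosed_eq (hPm.comp (continuous_apply h)) continuous_const))
  haveI : CompactSpace (Matrix (Fin a) (Fin a) ℤ_[p]) :=
    inferInstanceAs (CompactSpace (Fin a → Fin a → ℤ_[p]))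
  obtain ⟨f, hf⟩ := IsCompact.nonempty_iInter_of_sequence_nonempty_isCompact_isClosed S hnext hne
    (hcl 0).isCompact hcl
  rw [Set.mem_iInter] at hf
  have hext : ∀ A B : Matrix (Fin a) (Fin a) ℤ_[p],
      (∀ k, (PadicInt.toZModPow (k + 1)).mapMatrix A = (PadicInt.toZModPow (k + 1)).mapMatrix B) → A = B := by
    intro A B h
    refine Matrix.ext fun i j => PadicInt.ext_of_toZModPow.1 fun n => ?_
    rw [← PadicInt.cast_toZModPow n (n + 1) (Nat.le_succ n),
      ← PadicInt.cast_toZModPow n (n + 1) (Nat.le_succ n)]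
    exact congrArg ZMod.cast (congrFun (congrFun (h n) i) j)
  refine ⟨{ toFun := f, map_one' := hext _ _ fun k => by rw [(hf k).1, map_one],
            map_mul' := fun h h' => hext _ _ fun k => (hf k).2.1 h h' }, fun h h' e => hφ (Units.ext ?_)⟩
  rw [← (hf 0).2.2 h, ← (hf 0).2.2 h']
  exact congrArg _ e

end Padic

section Complex

open Cardinal

theorem mk_padic_le (p : ℕ) [Fact p.Prime] : #ℚ_[p] ≤ 𝔠 := by
  choose q hq using fun (x : ℚ_[p]) (n : ℕ) => Padic.rat_dense p x (Nat.one_div_pos_of_nat (α := ℝ) (n := n))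
  have hinj : Function.Injective q := by
    intro x y hxy
    by_contra hne
    obtain ⟨n, hn⟩ := exists_nat_one_div_lt (half_pos (norm_pos_iff.2 (sub_ne_zero.2 hne)))
    have h1 := hq x n
    have h2 := hq y n
    rw [hxy] at h1
    have := norm_sub_le_norm_sub_add_norm_sub x (q y n : ℚ_[p]) y
    rw [norm_sub_rev (q y n : ℚ_[p]) y] at this
    linarith
  refine (mk_le_of_injective hinj).trans_eq ?_
  simp [Cardinal.mk_pi, aleph0_power_aleph0]

theorem exists_padicInt_hom (p : ℕ) [Fact p.Prime] : ∃ f : ℤ_[p] →+* ℂ, Function.Injective f := by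
  let A := MvPolynomial ℝ ℚ_[p]
  let L := AlgebraicClosure (FractionRing A)
  have hF : #(FractionRing A) = 𝔠 := by
    rw [FractionRing.cardinalMk, MvPolynomial.cardinalMk_eq_max, mk_real,
      max_eq_right (mk_padic_le p), max_eq_left aleph0_le_continuum]
  have hlow : 𝔠 ≤ #L := hF ▸ mk_le_of_injective (algebraMap (FractionRing A) L).injective
  have hL : #L = 𝔠 := le_antisymm
    ((Algebra.IsAlgebraic.cardinalMk_le_max (FractionRing A) L).trans_eq
      (by rw [hF, max_eq_left aleph0_le_continuum])) hlow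
  let ι : ℚ_[p] →+* L := (algebraMap (FractionRing A) L).comp
    ((algebraMap A (FractionRing A)).comp MvPolynomial.C)
  haveI : CharZero L := charZero_of_injective_ringHom ι.injective
  obtain ⟨e⟩ := IsAlgClosed.ringEquiv_of_equiv_of_charZero (K := L) (L := ℂ)
    (aleph0_lt_continuum.trans_le hlow) (Cardinal.eq.1 (hL.trans mk_complex.symm))
  exact ⟨(e.toRingHom.comp ι).comp PadicInt.Coe.ringHom,
    (e.toRingHom.comp ι).injective.comp Subtype.val_injective⟩

end Complex

/-- A representation over the prime field of a group of order prime to `p` lifts. -/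
theorem exists_complex_faithful {p : ℕ} [Fact p.Prime] {a : ℕ} {H : Type u} [Group H] [Finite H]
    (hcop : ¬ p ∣ Nat.card H) (φ : H →* GL (Fin a) (ZMod p)) (hφ : Function.Injective φ) :
    ∃ ψ : H →* GL (Fin a) ℂ, Function.Injective ψ := by
  obtain ⟨s, hs⟩ := exists_lift_padic hcop φ hφ
  obtain ⟨f, hf⟩ := exists_padicInt_hom p
  refine ⟨(f.mapMatrix.toMonoidHom.comp s).toHomUnits, fun x y h => hs ?_⟩
  have h' : (s x).map f = (s y).map f := congrArg Units.val h
  exact Matrix.ext fun i j => hf (congrFun (congrFun h' i) j)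

end Cfsg.Agent.H27.SolvBlock
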