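import Cfsg.Agent.H52.RegPair.Semilinear
import Mathlib.RingTheory.Trace.Basic
import Mathlib.FieldTheory.Finite.Basic
import Mathlib.GroupTheory.Nilpotent
import Mathlib.LinearAlgebra.LinearIndependent.Lemmas
import Mathlib.Algebra.Module.ZMod
import Mathlib.Algebra.Field.ZMod

/-! A coprime module of a nilpotent group has a real vector: a vector whose stabiliser preserves a
nondegenerate pairing on the whole module. -/

set_option autoImplicit false
set_option linter.unusedSectionVars false
set_option linter.style.haveILetI false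

namespace Cfsg.Agent.H27.SolvBlock

open MulAction
open Cfsg.Agent.H52.RegPair (Inv Irr Imprim subAction SemiData exists_semiData)
open scoped Pointwise

universe u

/-- A real vector: its stabiliser preserves a nondegenerate pairing. -/
def Real (p : ℕ) (G : Type u) [Group G] (V : Type u) [AddCommGroup V] [DistribMulAction G V] : Prop :=
  ∃ (v : V) (β : V →+ V →+ ZMod p), (∀ g : G, g • v = v → ∀ x y : V, β (g • x) (g • y) = β x y) ∧
    ∀ x : V, (∀ y : V, β x y = 0) → x = 0

section Complement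

variable {G : Type u} [Group G] [Finite G] {V : Type u} [AddCommGroup V] [DistribMulAction G V] [Finite V]

/-- Invariant subgroups have invariant complements when the order of the group is prime to `p`. -/
theorem exists_complement {p : ℕ} [Fact p.Prime] (hexp : ∀ x : V, p • x = 0)
    (hcop : ¬ p ∣ Nat.card G) {U : AddSubgroup V} (hU : Inv G V U) :
    ∃ W : AddSubgroup V, Inv G V W ∧ U ⊓ W = ⊥ ∧ U ⊔ W = ⊤ := by
  classical
  haveI := Fintype.ofFinite G
  letI : Module (ZMod p) V := AddCommGroup.zmodModule hexp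
  haveI : Finite (AddSubgroup V) :=
    Finite.of_injective (fun D : AddSubgroup V => (D : Set V)) SetLike.coe_injective
  obtain ⟨W₀, hW₀, hmax⟩ := (Set.toFinite {W : AddSubgroup V | U ⊓ W = ⊥}).exists_maximal
    ⟨⊥, inf_bot_eq _⟩
  have hsup : ∀ x, x ∈ U ⊔ W₀ := by
    intro x
    by_contra hx
    have hmem : U ⊓ (W₀ ⊔ AddSubgroup.zmultiples x) = ⊥ := by
      refine (AddSubgroup.eq_bot_iff_forall _).2 fun z hz => ?_
      obtain ⟨w, hw, _, ⟨k, rfl⟩, hwk⟩ := AddSubgroup.mem_sup.1 hz.2
      simp only at hwk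
      have hkx : k • x = z - w := eq_sub_of_add_eq' hwk
      by_cases hk : (p : ℤ) ∣ k
      · obtain ⟨j, rfl⟩ := hk
        rw [mul_zsmul', natCast_zsmul, hexp, smul_zero, add_zero] at hwk
        have : z ∈ U ⊓ W₀ := ⟨hz.1, hwk ▸ hw⟩
        rwa [show U ⊓ W₀ = ⊥ from hW₀, AddSubgroup.mem_bot] at this
      · exfalso
        obtain ⟨a, b, hab⟩ := ((Nat.prime_iff_prime_int.1 Fact.out).coprime_iff_not_dvd).2 hk
        refine hx ?_
        have hx1 : x = b • (k • x) := by
          calc x = (a * (p : ℤ) + b * k) • x := by rw [hab, one_zsmul]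
            _ = _ := by rw [add_zsmul, mul_zsmul, mul_zsmul, natCast_zsmul, hexp, zsmul_zero, zero_add]
        rw [hx1, hkx]
        exact zsmul_mem (sub_mem (AddSubgroup.mem_sup_left hz.1) (AddSubgroup.mem_sup_right hw)) b
    exact hx (AddSubgroup.mem_sup_right (hmax hmem le_sup_left
      (AddSubgroup.mem_sup_right (AddSubgroup.mem_zmultiples x))))
  choose a ha w hw haw using fun x => AddSubgroup.mem_sup.1 (hsup x)
  have huniq : ∀ (x : V) (a' : V), a' ∈ U → ∀ w' ∈ W₀, a' + w' = x → a' = a x := by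
    intro x a' ha' w' hw' h
    have h1 : a' - a x = w x - w' := by
      rw [sub_eq_sub_iff_add_eq_add, h, add_comm, haw x]
    have : a' - a x ∈ U ⊓ W₀ := ⟨U.sub_mem ha' (ha x), h1 ▸ W₀.sub_mem (hw x) hw'⟩
    rw [show U ⊓ W₀ = ⊥ from hW₀, AddSubgroup.mem_bot] at this
    exact sub_eq_zero.1 this
  let π₀ : V →+ V := AddMonoidHom.mk' a fun x y => (huniq (x + y) _ (U.add_mem (ha x) (ha y)) _
    (W₀.add_mem (hw x) (hw y)) (by rw [add_add_add_comm, haw, haw])).symm
  have hπU : ∀ x, π₀ x ∈ U := ha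
  have hπid : ∀ x ∈ U, π₀ x = x := fun x hx => (huniq x x hx 0 W₀.zero_mem (add_zero x)).symm
  let c : ZMod p := (Nat.card G : ZMod p)⁻¹
  have hc : c * (Nat.card G : ZMod p) = 1 :=
    inv_mul_cancel₀ fun h => hcop ((ZMod.natCast_eq_zero_iff _ _).1 h)
  let π : V →+ V := c • ∑ g : G, (DistribSMul.toAddMonoidHom V g).comp
    (π₀.comp (DistribSMul.toAddMonoidHom V g⁻¹))
  have hπ : ∀ x, π x = c • ∑ g : G, g • π₀ (g⁻¹ • x) := fun x => by simp [π]
  have hsm : ∀ (h : G) (k : ZMod p) (x : V), h • (k • x) = k • (h • x) := fun h k x =>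
    ZMod.map_smul (DistribSMul.toAddMonoidHom V h) k x
  have hU' : ∀ x, π x ∈ U := fun x => by
    rw [hπ]
    exact ZMod.smul_mem (AddSubgroup.sum_mem U fun g _ => hU g _ (hπU _)) c
  have hid : ∀ x ∈ U, π x = x := fun x hx => by
    rw [hπ, Finset.sum_congr rfl fun g _ => by rw [hπid _ (hU g⁻¹ x hx), smul_inv_smul],
      Finset.sum_const, Finset.card_univ, ← Nat.card_eq_fintype_card,
      ← Nat.cast_smul_eq_nsmul (ZMod p), smul_smul, hc, one_smul]
  have heq : ∀ (h : G) x, π (h • x) = h • π x := fun h x => by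
    rw [hπ, hπ, hsm]
    refine congrArg (c • ·) ?_
    rw [Finset.smul_sum, ← Equiv.sum_comp (Equiv.mulLeft h)]
    refine Finset.sum_congr rfl fun g _ => ?_
    rw [Equiv.coe_mulLeft, mul_inv_rev, mul_smul, mul_smul, inv_smul_smul]
  refine ⟨π.ker, fun g x hx => ?_, (AddSubgroup.eq_bot_iff_forall _).2 fun x hx => ?_,
    eq_top_iff.2 fun x _ => AddSubgroup.mem_sup.2
      ⟨π x, hU' x, x - π x, ?_, add_sub_cancel _ _⟩⟩
  · rw [AddMonoidHom.mem_ker] at hx ⊢
    rw [heq, hx, smul_zero]
  · rw [← hid x hx.1]; exact AddMonoidHom.mem_ker.1 hx.2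
  · rw [AddMonoidHom.mem_ker, map_sub, hid _ (hU' x), sub_self]

theorem real_of_reducible {p : ℕ} {U W : AddSubgroup V} (hU : Inv G V U) (hW : Inv G V W)
    (hdis : U ⊓ W = ⊥) (hsup : U ⊔ W = ⊤)
    (hUr : letI := subAction hU; Real p G U) (hWr : letI := subAction hW; Real p G W) :
    Real p G V := by
  letI aU := subAction hU
  obtain ⟨u, βU, hβU, hUn⟩ := hUr
  letI aW := subAction hW
  obtain ⟨w, βW, hβW, hWn⟩ := hWr
  let s : U × W →+ V := U.subtype.coprod W.subtype
  have hs : Function.Bijective s := by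
    refine ⟨(injective_iff_map_eq_zero s).2 fun x hx => ?_, fun x => ?_⟩
    · have hx' : (x.1 : V) + x.2 = 0 := hx
      have h1 : (x.1 : V) ∈ U ⊓ W :=
        ⟨x.1.2, by rw [eq_neg_of_add_eq_zero_left hx']; exact W.neg_mem x.2.2⟩
      rw [hdis, AddSubgroup.mem_bot] at h1
      rw [h1, zero_add] at hx'
      exact Prod.ext (Subtype.ext h1) (Subtype.ext hx')
    · obtain ⟨a, ha, b, hb, rfl⟩ := AddSubgroup.mem_sup.1 (hsup ▸ AddSubgroup.mem_top x)
      exact ⟨(⟨a, ha⟩, ⟨b, hb⟩), rfl⟩
  let e : U × W ≃+ V := AddEquiv.ofBijective s hs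
  have he : ∀ y : U × W, e y = (y.1 : V) + y.2 := fun y => rfl
  have hsm : ∀ (g : G) (x : V), e.symm (g • x) = (g • (e.symm x).1, g • (e.symm x).2) := by
    intro g x
    rw [AddEquiv.symm_apply_eq]
    conv_lhs => rw [← e.apply_symm_apply x, he, smul_add]
    rfl
  let P : V →+ U := (AddMonoidHom.fst U W).comp e.symm.toAddMonoidHom
  let Q : V →+ W := (AddMonoidHom.snd U W).comp e.symm.toAddMonoidHom
  refine ⟨e (u, w), (βU.compl₂ P).comp P + (βW.compl₂ Q).comp Q, fun g hg x y => ?_, fun x hx => ?_⟩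
  · have h := hsm g (e (u, w))
    rw [hg, e.symm_apply_apply] at h
    have h1 : g • u = u := (congrArg Prod.fst h).symm
    have h2 : g • w = w := (congrArg Prod.snd h).symm
    show βU (P (g • x)) (P (g • y)) + βW (Q (g • x)) (Q (g • y)) = βU (P x) (P y) + βW (Q x) (Q y)
    have hP : ∀ z, P (g • z) = g • P z := fun z => congrArg Prod.fst (hsm g z)
    have hQ : ∀ z, Q (g • z) = g • Q z := fun z => congrArg Prod.snd (hsm g z)
    rw [hP, hP, hQ, hQ, hβU g h1, hβW g h2]
  · have hP : P x = 0 := hUn _ fun a => by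
      have h := hx (e (a, 0))
      change βU (P x) (P (e (a, 0))) + βW (Q x) (Q (e (a, 0))) = 0 at h
      simpa [P, Q] using h
    have hQ : Q x = 0 := hWn _ fun b => by
      have h := hx (e (0, b))
      change βU (P x) (P (e (0, b))) + βW (Q x) (Q (e (0, b))) = 0 at h
      simpa [P, Q] using h
    exact e.symm.injective (by rw [map_zero]; exact Prod.ext hP hQ)

end Complement

section Imprimitive

variable {G : Type u} [Group G] [Finite G] {V : Type u} [AddCommGroup V] [DistribMulAction G V] [Finite V]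

theorem real_of_imprim {p : ℕ} [Fact p.Prime] (hG : Group.IsNilpotent G) (hcop : ¬ p ∣ Nat.card G)
    (hexp : ∀ x : V, p • x = 0) (hirr : Irr G V) (him : Imprim G V)
    (ih : ∀ (H : Type u) [Group H] [Finite H] (X : Type u) [AddCommGroup X] [DistribMulAction H X]
      [Finite X], Nat.card X < Nat.card V → Group.IsNilpotent H → ¬ p ∣ Nat.card H →
      (∀ x : X, p • x = 0) → Real p H X) :
    Real p G V := by
  classical
  obtain ⟨𝔇, hinv, hnt, hne, hind⟩ := him
  let Ds : SubMulAction G (AddSubgroup V) := ⟨𝔇, fun g D hD => hinv g D hD⟩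
  haveI : Finite (AddSubgroup V) := Finite.of_injective (fun D : AddSubgroup V => (D : Set V)) SetLike.coe_injective
  letI := Fintype.ofFinite Ds
  have hindep : ∀ f : Ds → V, (∀ D : Ds, f D ∈ (D : AddSubgroup V)) → ∑ D, f D = 0 → ∀ D, f D = 0 := by
    intro f hf hsum D
    let s : Finset (AddSubgroup V) := Finset.univ.map (Function.Embedding.subtype _ : Ds ↪ AddSubgroup V)
    let F : AddSubgroup V → V := fun S => if h : S ∈ 𝔇 then f ⟨S, h⟩ else 0
    have hF : ∀ S : Ds, F (S : AddSubgroup V) = f S := fun S =>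
      (dif_pos (show (S : AddSubgroup V) ∈ 𝔇 from S.2))
    have h := hind s F (fun S hS => by
        obtain ⟨S', -, rfl⟩ := Finset.mem_map.1 hS; exact S'.2)
      (fun S hS => by obtain ⟨S', -, rfl⟩ := Finset.mem_map.1 hS; show F S' ∈ _; rw [hF]; exact hf S')
      (by rw [Finset.sum_map]; exact (Finset.sum_congr rfl fun S _ => hF S).trans hsum)
      (D : AddSubgroup V) (Finset.mem_map.2 ⟨D, Finset.mem_univ _, rfl⟩)
    rwa [hF] at h
  obtain ⟨D₀, hD₀, D₁, hD₁, hD01⟩ := hnt
  let B : Ds := ⟨D₀, hD₀⟩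
  have htr : ∀ C : Ds, ∃ g : G, g • B = C := by
    intro C
    by_contra hno
    push Not at hno
    let S : AddSubgroup V := ⨆ D : {D : Ds // ∃ g : G, g • B = D}, ((D : Ds) : AddSubgroup V)
    have hS : Inv G V S := by
      intro g x hx
      refine AddSubgroup.iSup_induction _ (C := fun x => g • x ∈ S) hx (fun D y hy => ?_)
        (by rw [smul_zero]; exact S.zero_mem) (fun y z hy hz => by rw [smul_add]; exact S.add_mem hy hz)
      obtain ⟨k, hk⟩ := D.2
      exact AddSubgroup.mem_iSup_of_mem ⟨g • (D : Ds), g * k, by rw [mul_smul, hk]⟩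
        (AddSubgroup.smul_mem_pointwise_smul y g _ hy)
    have hSne : S ≠ ⊥ := fun h => hne D₀ hD₀ (eq_bot_iff.2 (h ▸
      le_iSup (fun D : {D : Ds // ∃ g : G, g • B = D} => ((D : Ds) : AddSubgroup V)) ⟨B, 1, one_smul _ _⟩))
    have htop := (hirr S hS).resolve_left hSne
    obtain ⟨x, hx, hx0⟩ := (AddSubgroup.bot_or_exists_ne_zero (C : AddSubgroup V)).resolve_left (hne _ C.2)
    have hxS : x ∈ S := htop ▸ AddSubgroup.mem_top x
    obtain ⟨f, hf, hfC, hfx⟩ : ∃ f : Ds → V, (∀ D : Ds, f D ∈ (D : AddSubgroup V)) ∧ f C = 0 ∧ ∑ D, f D = x := by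
      refine AddSubgroup.iSup_induction _ (C := fun x => ∃ f : Ds → V,
        (∀ D : Ds, f D ∈ (D : AddSubgroup V)) ∧ f C = 0 ∧ ∑ D, f D = x) hxS ?_ ?_ ?_
      · intro D y hy
        refine ⟨Pi.single (D : Ds) y, fun E => ?_, ?_, Finset.sum_pi_single' _ _ _ |>.trans (by simp)⟩
        · by_cases h : E = (D : Ds)
          · subst h; rw [Pi.single_eq_same]; exact hy
          · rw [Pi.single_eq_of_ne h]; exact AddSubgroup.zero_mem _
        · obtain ⟨k, hk⟩ := D.2
          exact Pi.single_eq_of_ne (fun h => hno k (hk.trans h.symm)) _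
      · exact ⟨0, fun D => AddSubgroup.zero_mem _, rfl, by simp⟩
      · rintro y z ⟨f, hf, hf0, hfy⟩ ⟨f', hf', hf0', hfz⟩
        exact ⟨f + f', fun D => AddSubgroup.add_mem _ (hf D) (hf' D), by simp [hf0, hf0'],
          by simp [Finset.sum_add_distrib, hfy, hfz]⟩
    have := hindep (f - Pi.single C x) (fun D => by
      rw [Pi.sub_apply]
      refine AddSubgroup.sub_mem _ (hf D) ?_
      by_cases h : D = C
      · subst h; rw [Pi.single_eq_same]; exact hx
      · rw [Pi.single_eq_of_ne h]; exact AddSubgroup.zero_mem _) (by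
      simp [Finset.sum_sub_distrib, hfx, Finset.sum_pi_single']) C
    rw [Pi.sub_apply, hfC, Pi.single_eq_same, zero_sub, neg_eq_zero] at this
    exact hx0 this
  choose t ht using htr
  have ht' : ∀ C : Ds, t C • D₀ = (C : AddSubgroup V) := fun C => congrArg Subtype.val (ht C)
  let H := stabilizer G B
  have hHD : Inv H V D₀ := fun h x hx => by
    rw [Subgroup.smul_def]
    have : (h : G) • D₀ = D₀ := congrArg Subtype.val h.2
    exact this ▸ AddSubgroup.smul_mem_pointwise_smul x (h : G) D₀ hx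
  letI := subAction hHD
  have hlt : Nat.card D₀ < Nat.card V := by
    obtain ⟨y, hy, hy0⟩ := (AddSubgroup.bot_or_exists_ne_zero D₁).resolve_left (hne D₁ hD₁)
    refine Finite.card_subtype_lt (x := y) fun hy' => hy0 ?_
    let C : Ds := ⟨D₁, hD₁⟩
    have hCB : C ≠ B := fun h => hD01 (congrArg Subtype.val h).symm
    have h := hindep (Pi.single C y - Pi.single B y) (fun D => by
      rw [Pi.sub_apply]
      refine AddSubgroup.sub_mem _ ?_ ?_
      · by_cases h : D = C
        · subst h; rw [Pi.single_eq_same]; exact hy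
        · rw [Pi.single_eq_of_ne h]; exact AddSubgroup.zero_mem _
      · by_cases h : D = B
        · subst h; rw [Pi.single_eq_same]; exact hy'
        · rw [Pi.single_eq_of_ne h]; exact AddSubgroup.zero_mem _)
      (by simp [Finset.sum_sub_distrib, Finset.sum_pi_single']) C
    rwa [Pi.sub_apply, Pi.single_eq_same, Pi.single_eq_of_ne hCB, sub_zero] at h
  haveI := hG
  obtain ⟨v₀, β₀, hβ₀, hn₀⟩ := ih H D₀ hlt inferInstance
    (fun h => hcop (h.trans H.card_subgroup_dvd_card)) (fun x => Subtype.ext (hexp (x : V)))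
  let Φ₀ : (Ds → D₀) →+ V := AddMonoidHom.mk' (fun c => ∑ C, t C • (c C : V)) fun c c' => by
    simp [Finset.sum_add_distrib]
  have hmem : ∀ (c : Ds → D₀) (C : Ds), t C • (c C : V) ∈ (C : AddSubgroup V) := fun c C => by
    rw [← ht' C]; exact AddSubgroup.smul_mem_pointwise_smul _ _ _ (c C).2
  have hst : ∀ (g : G) (D : Ds), (t D)⁻¹ * g * t (g⁻¹ • D) ∈ H := fun g D => by
    rw [mem_stabilizer_iff, mul_smul, mul_smul, ht, inv_smul_eq_iff, smul_inv_smul, ht]
  let act : G → (Ds → D₀) → Ds → D₀ := fun g c D =>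
    (⟨_, hst g D⟩ : H) • c (g⁻¹ • D)
  have hact : ∀ g c, g • Φ₀ c = Φ₀ (act g c) := fun g c => by
    show g • ∑ C, t C • (c C : V) = ∑ D, t D • (((t D)⁻¹ * g * t (g⁻¹ • D)) • (c (g⁻¹ • D) : V))
    rw [Finset.smul_sum, ← Equiv.sum_comp (MulAction.toPerm g⁻¹)]
    refine Finset.sum_congr rfl fun D _ => ?_
    rw [MulAction.toPerm_apply, ← mul_smul, ← mul_smul]
    congr 1
    group
  have hbij : Function.Bijective Φ₀ := by
    refine ⟨(injective_iff_map_eq_zero Φ₀).2 fun c hc => funext fun C => ?_, ?_⟩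
    · have h := hindep _ (hmem c) hc C
      rw [smul_eq_zero_iff_eq] at h
      exact Subtype.ext h
    · refine AddMonoidHom.range_eq_top.1 ((hirr _ ?_).resolve_left fun h => ?_)
      · rintro g _ ⟨c, rfl⟩; exact ⟨_, (hact g c).symm⟩
      · obtain ⟨y, hy, hy0⟩ := (AddSubgroup.bot_or_exists_ne_zero D₀).resolve_left (hne _ hD₀)
        have h1 : Φ₀ (Pi.single B ⟨y, hy⟩) ∈ Φ₀.range := ⟨_, rfl⟩
        rw [h, AddSubgroup.mem_bot] at h1
        have h2 := hindep _ (hmem (Pi.single B ⟨y, hy⟩)) h1 B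
        rw [smul_eq_zero_iff_eq, Pi.single_eq_same] at h2
        exact hy0 h2
  let Φ : (Ds → D₀) ≃+ V := AddEquiv.ofBijective Φ₀ hbij
  let π : Ds → V →+ D₀ := fun C => (Pi.evalAddMonoidHom (fun _ : Ds => D₀) C).comp Φ.symm.toAddMonoidHom
  have hπ : ∀ (g : G) (x : V) (C : Ds), π C (g • x) = act g (Φ.symm x) C := fun g x C => by
    refine congrFun (Φ.symm_apply_eq.2 ?_) C
    conv_lhs => rw [← Φ.apply_symm_apply x]
    exact hact g _
  refine ⟨Φ fun _ => v₀, ∑ C, (β₀.compl₂ (π C)).comp (π C), fun g hg x y => ?_, fun x hx => ?_⟩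
  · have hfix : ∀ D : Ds, (⟨_, hst g D⟩ : H) • v₀ = v₀ := fun D => by
      have h := hπ g (Φ fun _ => v₀) D
      rw [hg] at h
      simpa [π, act] using h.symm
    simp only [AddMonoidHom.finsetSum_apply, AddMonoidHom.coe_comp, Function.comp_apply,
      AddMonoidHom.compl₂_apply, hπ]
    rw [← Equiv.sum_comp (MulAction.toPerm g⁻¹) (fun C => β₀ (π C x) (π C y))]
    exact Finset.sum_congr rfl fun D _ => hβ₀ _ (hfix D) _ _
  · have h : ∀ C, π C x = 0 := fun C => hn₀ _ fun d => by
      have h := hx (Φ (Pi.single C d))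
      simp only [AddMonoidHom.finsetSum_apply, AddMonoidHom.coe_comp, Function.comp_apply,
        AddMonoidHom.compl₂_apply] at h
      rw [Finset.sum_eq_single C (fun C' _ hC' => by simp [π, Pi.single_eq_of_ne hC']) (by simp)] at h
      simpa [π] using h
    exact Φ.symm.injective (by rw [map_zero]; exact funext h)

end Imprimitive

section Primitive

variable {G : Type u} [Group G] [Finite G]

/-- A finite nilpotent group has a self-centralising abelian normal subgroup. -/
theorem exists_self_centralizing [Group.IsNilpotent G] :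
    ∃ A : Subgroup G, A.Normal ∧ (∀ a ∈ A, ∀ b ∈ A, a * b = b * a) ∧
      Subgroup.centralizer (A : Set G) ≤ A := by
  haveI : Finite (Subgroup G) := Finite.of_injective (fun D : Subgroup G => (D : Set G)) SetLike.coe_injective
  obtain ⟨A, ⟨hAn, hab⟩, hmax⟩ := (Set.toFinite
    {A : Subgroup G | A.Normal ∧ ∀ a ∈ A, ∀ b ∈ A, a * b = b * a}).exists_maximal
    ⟨⊥, inferInstance, fun a ha b hb => by rw [Subgroup.mem_bot] at ha hb; rw [ha, hb]⟩
  haveI := hAn
  refine ⟨A, hAn, hab, ?_⟩
  have key : ∀ n, Subgroup.centralizer (A : Set G) ⊓ Subgroup.upperCentralSeries G n ≤ A := by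
    intro n
    induction n with
    | zero => rw [Subgroup.upperCentralSeries_zero, inf_bot_eq]; exact bot_le
    | succ n ih =>
      rintro x ⟨hxC, hxZ⟩
      replace hxC : x ∈ Subgroup.centralizer (A : Set G) := hxC
      replace hxZ := Subgroup.mem_upperCentralSeries_succ_iff.1 hxZ
      have hcomm : ∀ y, x * y * x⁻¹ * y⁻¹ ∈ A := fun y => ih ⟨by
        have h := (inferInstance : (Subgroup.centralizer (A : Set G)).Normal).conj_mem _
          (inv_mem hxC) y
        show x * y * x⁻¹ * y⁻¹ ∈ Subgroup.centralizer (A : Set G)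
        simpa only [mul_assoc] using mul_mem hxC h, hxZ y⟩
      have hAA : A ≤ Subgroup.centralizer (A : Set G) := fun a ha b hb => hab b hb a ha
      have hxA : Subgroup.zpowers x ≤ Subgroup.centralizer (A : Set G) := Subgroup.zpowers_le.2 hxC
      have hxx : Subgroup.zpowers x ≤ Subgroup.centralizer ((Subgroup.zpowers x : Subgroup G) : Set G) :=
        Subgroup.zpowers_le.2 (by rintro _ ⟨k, rfl⟩; exact (Commute.zpow_self x k).eq)
      have hle : A ⊔ Subgroup.zpowers x ≤ Subgroup.centralizer ((A ⊔ Subgroup.zpowers x : Subgroup G) : Set G) :=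
        sup_le (Subgroup.le_centralizer_iff.1 (sup_le hAA hxA))
          (Subgroup.le_centralizer_iff.1 (sup_le (Subgroup.le_centralizer_iff.1 hxA) hxx))
      refine hmax ⟨⟨fun z hz g => ?_⟩, fun a ha b hb => hle hb a ha⟩ le_sup_left
        (Subgroup.mem_sup_right (Subgroup.mem_zpowers x))
      have h : A ⊔ Subgroup.zpowers x ≤ (A ⊔ Subgroup.zpowers x).comap (MulAut.conj g).toMonoidHom := by
        refine sup_le (fun a ha => Subgroup.mem_sup_left (hAn.conj_mem a ha g)) (Subgroup.zpowers_le.2 ?_)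
        show g * x * g⁻¹ ∈ A ⊔ Subgroup.zpowers x
        rw [show g * x * g⁻¹ = (x * g * x⁻¹ * g⁻¹)⁻¹ * x by group]
        exact mul_mem (Subgroup.mem_sup_left (inv_mem (hcomm g)))
          (Subgroup.mem_sup_right (Subgroup.mem_zpowers x))
      exact h hz
  obtain ⟨n, hn⟩ := Group.IsNilpotent.nilpotent (G := G)
  simpa [hn] using key n

variable {V : Type u} [AddCommGroup V] [DistribMulAction G V] [Finite V] [Nontrivial V]

theorem real_of_primitive {p : ℕ} [Fact p.Prime] [FaithfulSMul G V] (hG : Group.IsNilpotent G)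
    (hexp : ∀ x : V, p • x = 0) (hirr : Irr G V) (hnim : ¬ Imprim G V) : Real p G V := by
  classical
  haveI := hG
  obtain ⟨A, hAn, hab, hCA⟩ := exists_self_centralizing (G := G)
  haveI := hAn
  obtain ⟨K, fK, mK, hK, ⟨D⟩⟩ := exists_semiData hirr hnim A hab
  letI := fK
  letI := mK
  haveI := hK
  obtain ⟨w, hw⟩ := exists_ne (0 : V)
  haveI : CharP K p := (CharP.charP_iff_prime_eq_zero Fact.out).2
    ((smul_eq_zero.1 (show (p : K) • w = 0 by rw [Nat.cast_smul_eq_nsmul, hexp])).resolve_right hw)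
  letI : Algebra (ZMod p) K := ZMod.algebra K p
  let S := stabilizer G w
  letI := Fintype.ofFinite S
  have hσinj : Function.Injective fun s : S => (D.σ (s : G) : K →* K) := by
    intro s t hst
    have hst' : ∀ k, D.σ (s : G) k = D.σ (t : G) k := fun k => DFunLike.congr_fun hst k
    have hmem : ((t : G)⁻¹ * s) ∈ A := hCA fun x hx => FaithfulSMul.eq_of_smul_eq_smul (α := V) fun v => by
      have h : ∀ (k : K) (v : V), ((t : G)⁻¹ * s) • (k • v) = k • (((t : G)⁻¹ * s) • v) := fun k v => by
        rw [mul_smul, mul_smul, inv_smul_eq_iff, D.smul_σ, D.smul_σ, smul_inv_smul, hst']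
      rw [mul_smul x, mul_smul _ x, ← D.smul_ι ⟨x, hx⟩, ← D.smul_ι ⟨x, hx⟩, h]
    have h1 : D.ι ⟨_, hmem⟩ = 1 := smul_left_injective K hw (by
      show D.ι ⟨_, hmem⟩ • w = (1 : K) • w
      rw [D.smul_ι, one_smul]
      rw [mul_smul, show (s : G) • w = w from s.2, inv_smul_eq_iff]
      exact t.2.symm)
    have h2 : (t : G)⁻¹ * s = 1 := FaithfulSMul.eq_of_smul_eq_smul (α := V) fun v => by
      rw [one_smul, ← D.smul_ι ⟨_, hmem⟩, h1, one_smul]
    exact Subtype.ext (inv_mul_eq_one.1 h2).symm
  let F : Set V := {v | ∀ s : S, (s : G) • v = v}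
  have hspan : Submodule.span K F = ⊤ := by
    by_contra hne
    obtain ⟨l, hl0, hl⟩ := Submodule.exists_dual_map_eq_bot_of_lt_top (lt_top_iff_ne_top.2 hne) inferInstance
    refine hl0 (LinearMap.ext fun v => ?_)
    have hzero : ∀ k : K, ∑ s : S, l ((s : G) • v) * D.σ (s : G) k = 0 := fun k => by
      have hF : ∑ s : S, (s : G) • (k • v) ∈ F := fun t => by
        rw [Finset.smul_sum]
        simp only [← mul_smul]
        exact Equiv.sum_comp (Equiv.mulLeft t) (fun s : S => (s : G) • (k • v))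
      have h : l (∑ s : S, (s : G) • (k • v)) ∈ (Submodule.span K F).map l :=
        ⟨_, Submodule.subset_span hF, rfl⟩
      rw [hl, Submodule.mem_bot, map_sum] at h
      rw [← h]
      exact Finset.sum_congr rfl fun s _ => by rw [D.smul_σ, l.map_smul, smul_eq_mul, mul_comm]
    have h := Fintype.linearIndependent_iff.1 ((linearIndependent_monoidHom K K).comp _ hσinj)
      (fun s => l ((s : G) • v)) (funext fun k => by simpa using hzero k) 1
    simpa using h
  obtain ⟨b₀, hb₀, hb₀s, hb₀i⟩ := exists_linearIndependent K F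
  letI := Fintype.ofFinite b₀
  let b := Module.Basis.mk hb₀i (by rw [Subtype.range_coe, hb₀s, hspan])
  have hb : ∀ i : b₀, b i = (i : V) := fun i => Module.Basis.mk_apply _ _ i
  let c : b₀ → V →+ K := fun i => (b.coord i).toAddMonoidHom
  have hc : ∀ i x, c i x = b.repr x i := fun i x => rfl
  let T : K →+ ZMod p := (Algebra.trace (ZMod p) K).toAddMonoidHom
  refine ⟨w, ∑ i, ((AddMonoidHom.mul.compl₂ (c i)).comp (c i)).compr₂ T, fun g hg x y => ?_, fun x hx => ?_⟩
  · have hrepr : ∀ z i, c i (g • z) = D.σ g (c i z) := fun z i => by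
      have h : g • z = ∑ j, D.σ g (b.repr z j) • b j := by
        conv_lhs => rw [← b.sum_repr z, Finset.smul_sum]
        exact Finset.sum_congr rfl fun j _ => by
          rw [D.smul_σ, hb, show g • (j : V) = j from hb₀ j.2 ⟨g, hg⟩]
      rw [hc, hc, h, b.repr_sum_self]
    have hcomm : ∀ r : ZMod p, D.σ g (algebraMap (ZMod p) K r) = algebraMap (ZMod p) K r := fun r =>
      RingHom.congr_fun
        (RingHom.ext_zmod ((D.σ g).comp (algebraMap (ZMod p) K)) (algebraMap (ZMod p) K)) r
    let e : K ≃ₐ[ZMod p] K := AlgEquiv.ofBijective ({ D.σ g with commutes' := hcomm } : K →ₐ[ZMod p] K)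
      (Finite.injective_iff_bijective.1 (D.σ g).injective)
    simp only [AddMonoidHom.finsetSum_apply, AddMonoidHom.compr₂_apply, AddMonoidHom.coe_comp,
      Function.comp_apply, AddMonoidHom.compl₂_apply, AddMonoidHom.mul_apply, hrepr, ← map_mul]
    exact Finset.sum_congr rfl fun i _ => Algebra.trace_eq_of_algEquiv e _
  · refine b.repr.injective (Finsupp.ext fun i => ?_)
    rw [map_zero, Finsupp.zero_apply]
    by_contra hne
    obtain ⟨k, hk⟩ := Algebra.trace_surjective (ZMod p) K 1
    have h := hx (((b.repr x i)⁻¹ * k) • b i)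
    simp only [AddMonoidHom.finsetSum_apply, AddMonoidHom.compr₂_apply, AddMonoidHom.coe_comp,
      Function.comp_apply, AddMonoidHom.compl₂_apply, AddMonoidHom.mul_apply, hc, map_smul,
      b.repr_self, Finsupp.smul_single, smul_eq_mul, mul_one] at h
    rw [Finset.sum_eq_single i (fun j _ hj => by simp [Finsupp.single_eq_of_ne hj]) (by simp),
      Finsupp.single_eq_same, mul_inv_cancel_left₀ hne] at h
    exact one_ne_zero (hk.symm.trans h)

end Primitive

section Main

theorem exists_real_aux {p : ℕ} [Fact p.Prime] (N : ℕ) :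
    ∀ (G : Type u) [Group G] [Finite G] (V : Type u) [AddCommGroup V] [DistribMulAction G V]
      [Finite V], Nat.card V < N → Group.IsNilpotent G → ¬ p ∣ Nat.card G → (∀ x : V, p • x = 0) →
      Real p G V := by
  induction N with
  | zero => intro G _ _ V _ _ _ h; exact absurd h (Nat.not_lt_zero _)
  | succ N ih =>
    have faithful : ∀ (G : Type u) [Group G] [Finite G] (V : Type u) [AddCommGroup V] [DistribMulAction G V]
        [Finite V] [FaithfulSMul G V], Nat.card V < N + 1 → Group.IsNilpotent G → ¬ p ∣ Nat.card G →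
        (∀ x : V, p • x = 0) → Real p G V := by
      intro G _ _ V _ _ _ _ hlt hG hcop hexp
      cases subsingleton_or_nontrivial V with
      | inl hs => exact ⟨0, 0, fun g _ x y => rfl, fun x _ => Subsingleton.elim _ _⟩
      | inr hnt =>
        by_cases hirr : Irr G V
        · by_cases him : Imprim G V
          · exact real_of_imprim hG hcop hexp hirr him fun H _ _ X _ _ _ hX =>
              ih H X (lt_of_lt_of_le hX (Nat.lt_succ_iff.1 hlt))
          · exact real_of_primitive hG hexp hirr him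
        · simp only [Irr, not_forall] at hirr
          obtain ⟨U, hU, hne⟩ := hirr
          rw [not_or] at hne
          obtain ⟨W, hW, hdis, hsup⟩ := exists_complement hexp hcop hU
          have hW1 : W ≠ ⊤ := fun h => hne.1 (by rw [h, inf_top_eq] at hdis; exact hdis)
          have hsub : ∀ {S : AddSubgroup V} (hS : Inv G V S), S ≠ ⊤ →
              letI := subAction hS; Real p G S := fun {S} hS hS1 => by
            obtain ⟨x, hx⟩ := SetLike.exists_not_mem_of_ne_top S hS1 rfl
            exact @ih G _ _ S _ (subAction hS) _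
              (lt_of_lt_of_le (Finite.card_subtype_lt (x := x) hx) (Nat.lt_succ_iff.1 hlt)) hG hcop
              fun y => Subtype.ext (hexp (y : V))
          exact real_of_reducible hU hW hdis hsup (hsub hU hne.2) (hsub hW hW1)
    intro G _ _ V _ _ _ hlt hG hcop hexp
    haveI := hG
    let f := DistribMulAction.toAddMonoidEnd G V
    let φ : (G ⧸ f.ker) →* AddMonoid.End V := QuotientGroup.lift f.ker f le_rfl
    letI : DistribMulAction (G ⧸ f.ker) V :=
      { smul := fun a v => φ a v
        one_smul := fun v => DFunLike.congr_fun (map_one φ) v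
        mul_smul := fun a b v => DFunLike.congr_fun (map_mul φ a b) v
        smul_zero := fun a => map_zero (φ a)
        smul_add := fun a x y => map_add (φ a) x y }
    have hmk : ∀ (g : G) (v : V), (QuotientGroup.mk g : G ⧸ f.ker) • v = g • v := fun g v => rfl
    haveI : FaithfulSMul (G ⧸ f.ker) V := ⟨fun {a b} hab => by
      induction a using QuotientGroup.induction_on with
      | _ x =>
        induction b using QuotientGroup.induction_on with
        | _ y =>
          refine QuotientGroup.eq.2 (MonoidHom.mem_ker.2 ?_)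
          have h : f x = f y := AddMonoidHom.ext hab
          rw [map_mul, ← h, ← map_mul, inv_mul_cancel, map_one]⟩
    obtain ⟨v, β, hβ, hn⟩ := faithful (G ⧸ f.ker) V hlt inferInstance
      (fun h => hcop (h.trans f.ker.card_quotient_dvd_card)) hexp
    exact ⟨v, β, fun g hg x y => by rw [← hmk g x, ← hmk g y]; exact hβ _ ((hmk g v).trans hg) x y, hn⟩

/-- Real vectors exist for coprime modules of nilpotent groups. -/
theorem exists_real {p : ℕ} [Fact p.Prime] {G : Type u} [Group G] [Finite G] {V : Type u}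
    [AddCommGroup V] [DistribMulAction G V] [Finite V] (hG : Group.IsNilpotent G)
    (hcop : ¬ p ∣ Nat.card G) (hexp : ∀ x : V, p • x = 0) : Real p G V :=
  exists_real_aux (Nat.card V + 1) G V (Nat.lt_succ_self _) hG hcop hexp

end Main

end Cfsg.Agent.H27.SolvBlock
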